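import Cfsg.Agent.H236.CC.Van
import Cfsg.Agent.H675.CC.Chain

/-!
# S4884, classical groups in cross characteristic: the numbers of stable flags modulo `q` (FLMOD)

* `fl_stP_modEq` : `Γ` a `q`-group of linear automorphisms commuting with `X` and preserving `Adm`;
* `fl_act_modEq` : the images of a `q`-subgroup `Q₀` of `Gh` and of an element `g` commuting with it.
* `dvd_tt`       : with `tt_zero_bot`: `q` divides `TT (rkS Adm {act g}) (dig N) (botS h0 _)`.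
-/

set_option autoImplicit false

namespace Cfsg.Agent.H236.CC

open Cfsg.Agent.H439.CC Cfsg.Agent.H675.CC

universe u v

section

variable {F : Type u} [Field F] {V : Type v} [AddCommGroup V] [Module F V]

/-- the action of a group `Γ` of linear automorphisms, commuting with `X` and preserving `Adm`, on the `X`-stable
admissible subspaces -/
@[instance_reducible] def actStP {Adm : Submodule F V → Prop} {X : Set (V ≃ₗ[F] V)} (Γ : Subgroup (V ≃ₗ[F] V))
    (hstab : ∀ x ∈ Γ, ∀ U : Submodule F V, Adm U → Adm (U.map (x : V →ₗ[F] V)))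
    (hcomm : ∀ x ∈ Γ, ∀ y ∈ X, x * y = y * x) : MulAction Γ (StP Adm X) where
  smul x U := ⟨U.1.map ((x : V ≃ₗ[F] V) : V →ₗ[F] V), hstab _ x.2 _ U.2.1, fun y hy => by
    have h1 : ((y : V ≃ₗ[F] V) : V →ₗ[F] V).comp ((x : V ≃ₗ[F] V) : V →ₗ[F] V)
        = ((x : V ≃ₗ[F] V) : V →ₗ[F] V).comp ((y : V ≃ₗ[F] V) : V →ₗ[F] V) := by
      ext v
      exact (LinearEquiv.congr_fun (hcomm _ x.2 y hy) v).symm
    rw [← Submodule.map_comp, h1, Submodule.map_comp, U.2.2 y hy]⟩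
  one_smul U := Subtype.ext (Submodule.map_id U.1)
  mul_smul x y U := Subtype.ext (Submodule.map_comp _ _ U.1)

/-- **FLMOD**, general form: `Γ` a `q`-group of linear automorphisms commuting with `X` and preserving `Adm`. -/
theorem fl_stP_modEq [Finite V] {Adm : Submodule F V → Prop} {X : Set (V ≃ₗ[F] V)} (h0 : Adm ⊥)
    (Γ : Subgroup (V ≃ₗ[F] V)) {q : ℕ} [Fact q.Prime] (hΓ : IsPGroup q Γ)
    (hstab : ∀ x ∈ Γ, ∀ U : Submodule F V, Adm U → Adm (U.map (x : V →ₗ[F] V)))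
    (hcomm : ∀ x ∈ Γ, ∀ y ∈ X, x * y = y * x) (K : Finset ℕ) :
    fl (rkS Adm X) (botS h0 X) K ≡ fl (rkS Adm ((Γ : Set (V ≃ₗ[F] V)) ∪ X)) (botS h0 _) K [MOD q] := by
  have hfin : Finite (StP Adm X) := finite_StP Adm X
  have hfE : Finite (V ≃ₗ[F] V) := Finite.of_injective (fun e : V ≃ₗ[F] V => (e : V → V)) DFunLike.coe_injective
  have hmf : Module.Finite F V := inferInstance
  let _ : MulAction Γ (StP Adm X) := actStP Γ hstab hcomm
  have hmono : ∀ (g : Γ) (x y : StP Adm X), x ≤ y → g • x ≤ g • y := fun g x y hxy =>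
    Submodule.map_mono (f := ((g : V ≃ₗ[F] V) : V →ₗ[F] V)) (show x.1 ≤ y.1 from hxy)
  have hinv : ∀ (g : Γ) (x : StP Adm X), rkS Adm X (g • x) = rkS Adm X x := fun g x =>
    LinearEquiv.finrank_map_eq (g : V ≃ₗ[F] V) x.1
  have hA : ∀ g : Γ, g • botS h0 X = botS h0 X := fun g => Subtype.ext (Submodule.map_bot _)
  have h1 := fl_modEq hΓ hmono (rkS_strictMono Adm X) hinv hA K
  let e : {x : StP Adm X // ∀ g : Γ, g • x = x} ≃o StP Adm ((Γ : Set (V ≃ₗ[F] V)) ∪ X) :=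
    { toFun := fun x => ⟨x.1.1, x.1.2.1, fun y hy => hy.elim
        (fun hy => congrArg Subtype.val (x.2 ⟨y, hy⟩)) (fun hy => x.1.2.2 y hy)⟩
      invFun := fun x => ⟨⟨x.1, x.2.1, fun y hy => x.2.2 y (Or.inr hy)⟩,
        fun g => Subtype.ext (x.2.2 g.1 (Or.inl g.2))⟩
      left_inv := fun _ => rfl
      right_inv := fun _ => rfl
      map_rel_iff' := Iff.rfl }
  have h2 := fl_congr e (rk := fun x => rkS Adm X x.1) (rk' := rkS Adm ((Γ : Set (V ≃ₗ[F] V)) ∪ X)) (fun _ => rfl)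
    ⟨botS h0 X, hA⟩ K
  rw [← h2] at h1
  exact h1

/-- **FLMOD**: `Q₀` a `q`-subgroup of `Ĝ`, `g` commuting with `Q₀`: the numbers of flags stable under `g` and under `Q₀`
and `g` are congruent modulo `q`. -/
theorem fl_act_modEq [Finite V] {Adm : Submodule F V → Prop} (h0 : Adm ⊥) {Gh : Type*} [Group Gh]
    (act : Gh →* (V ≃ₗ[F] V)) (hstab : ∀ (g : Gh) (U : Submodule F V), Adm U → Adm (U.map (act g : V →ₗ[F] V)))
    {q : ℕ} [Fact q.Prime] (Q₀ : Subgroup Gh) (hQ : IsPGroup q Q₀) (g : Gh) (hg : ∀ x ∈ Q₀, x * g = g * x)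
    (K : Finset ℕ) :
    fl (rkS Adm {act g}) (botS h0 _) K ≡ fl (rkS Adm (act '' (Q₀ : Set Gh) ∪ {act g})) (botS h0 _) K [MOD q] := by
  have h := fl_stP_modEq (X := {act g}) h0 (Q₀.map act) (hQ.map act)
    (fun x hx U hU => by
      obtain ⟨y, -, rfl⟩ := hx
      exact hstab y U hU)
    (fun x hx y hy => by
      obtain ⟨z, hz, rfl⟩ := hx
      rw [Set.mem_singleton_iff.1 hy, ← map_mul, ← map_mul, hg z hz]) K
  exact h

/-- **TTZ + FLMOD**: `Q₀` a commutative `q`-subgroup without primary digit flags, `g` commuting with `Q₀`. -/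
theorem dvd_tt (hE1 : E1.{v}) (hE2 : E2.{u, v}) [Finite F] [Module.Finite F V] {Adm : Submodule F V → Prop}
    (h0 : Adm ⊥) (hdown : ∀ U U' : Submodule F V, U ≤ U' → Adm U' → Adm U) {Gh : Type*} [Group Gh]
    (act : Gh →* (V ≃ₗ[F] V)) (hstab : ∀ (g : Gh) (U : Submodule F V), Adm U → Adm (U.map (act g : V →ₗ[F] V)))
    {q : ℕ} [Fact q.Prime] (Q₀ : Subgroup Gh) (hQ : IsPGroup q Q₀) (hQc : ∀ x ∈ Q₀, ∀ y ∈ Q₀, x * y = y * x)
    (N : ℕ) (hA : ¬ PF Adm (act '' (Q₀ : Set Gh)) (dig N) ⊥) (g : Gh) (hg : ∀ x ∈ Q₀, x * g = g * x) :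
    (q : ℤ) ∣ TT (rkS Adm {act g}) (dig N) (botS h0 _) := by
  have : Finite V := Module.finite_of_finite F
  have h1 := tt_zero_bot hE1 hE2 h0 hdown act Q₀ hQc g hg N hA
  refine (Int.modEq_zero_iff_dvd).1 ?_
  rw [← h1, TT, TT]
  refine Int.ModEq.sum fun K _ => ?_
  exact Int.ModEq.mul_left _ (Int.natCast_modEq_iff.2 (fl_act_modEq h0 act hstab Q₀ hQ g hg K))

end

end Cfsg.Agent.H236.CC
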